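import Cfsg.Agent.H419.EP.Targets
import Cfsg.Agent.H925.EvenFine

/-!
# S3499, layer III, orthogonal groups: the assembly of `OrthNonRes` (helper778)

The rows `OmRed`, `OmPoint`, `OmC2`, `OmC2t2`, `OmC2b`, `OmC3`, `OmC4`, `OmC5`, `OmC6`, `OmC7` (the tasks Om-*) are stated here
exactly in the form in which the assembly uses them (`H = m.hat A`); `orthNonRes_of` proves the target.
-/

set_option autoImplicit false

namespace Cfsg.Agent.H778.EP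

open Subgroup Cfsg.Agent.H284 Cfsg.Agent.H419.EP QuadraticMap
open Cfsg.Agent.H919 (HermForm WreathData)
open scoped MatrixGroups

/-- the rows: no extremely primitive group with socle `Ω(Qf)` modulo scalars and stabiliser `A` satisfying `C` -/
def OmRow (C : ∀ (F : Type) [Field F] [Fintype F] (ι : Type) [Fintype ι] [DecidableEq ι] (_ : (ι → F) → F)
    (_ : Subgroup (GL ι F)), Prop) : Prop :=
  ∀ {Q : Type} [Group Q] [Finite Q], IsSimpleGroup Q → ∀ {A : Subgroup Q}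
    {Γ : Subgroup (MulAut Q)}, EPT A Γ → ∀ {F : Type} [Field F] [Fintype F] {ι : Type} [Fintype ι] [DecidableEq ι]
    {Qf : (ι → F) → F} (m : Model Q (Cfsg.Geo.omegaGL Qf)), 7 ≤ Fintype.card ι →
    Cfsg.Geo.IsNondegenerateQuadraticForm Qf → C F ι Qf (m.hat A) → False

/-- [Om-POINT] the stabiliser of a nonsingular point -/
def OmPoint : Prop := OmRow fun F _ _ ι _ _ Qf H =>
  ∃ v : ι → F, Qf v ≠ 0 ∧ H ≤ Geo.subspaceStabilizer (Submodule.span F {v})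

/-- [Om-C2t2, first part] the stabiliser of `{W, W⊥}`, `W` nondegenerate of dimension `n / 2` -/
def OmC2t2 : Prop := OmRow fun F _ _ ι _ _ Qf H =>
  ∃ (k : ℕ) (D : Fin 2 → Submodule F (ι → F)), 2 * k = Fintype.card ι ∧
    Geo.IsNondegenerateMDecomposition (polar Qf) k D ∧ H ≤ Geo.decompositionStabilizer D

/-- [Om-C2t2, second part] pairs of complementary totally singular subspaces -/
def OmC2b : Prop := OmRow fun F _ _ ι _ _ Qf H =>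
  Geo.ActsIrreducibly (Geo.matrixSet H) ∧ ∃ (k : ℕ) (D : Fin 2 → Submodule F (ι → F)), 2 * k = Fintype.card ι ∧
    Geo.IsMDecomposition k D ∧ (∀ i, Geo.IsTotallySingularQuad Qf (D i)) ∧ H ≤ Geo.decompositionStabilizer D

/-- [Om-RED] reducible stabilisers -/
def OmRed : Prop := OmPoint → OmC2t2 → OmRow fun _ _ _ _ _ _ _ H => ¬ Geo.ActsIrreducibly (Geo.matrixSet H)

/-- [Om-C2] orthogonal decompositions into `t ≥ 3` subspaces -/
def OmC2 : Prop := OmRow fun F _ _ ι _ _ Qf H =>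
  Geo.ActsIrreducibly (Geo.matrixSet H) ∧ ∃ (t k : ℕ) (D : Fin t → Submodule F (ι → F)), t * k = Fintype.card ι ∧ 3 ≤ t ∧
    Geo.IsOrthogonalMDecomposition Qf k D ∧ H ≤ Geo.decompositionStabilizer D ∧
    (∀ i j, ∃ h ∈ H, (D i).map (Matrix.toLin' (h : Matrix ι ι F)) = D j)

/-- [Om-C3] extension fields -/
def OmC3 : Prop := OmRow fun F _ _ ι _ _ Qf H =>
  Geo.ActsIrreducibly (Geo.matrixSet H) ∧ ∃ (r : ℕ) (K : Subalgebra F (Matrix ι ι F)), r.Prime ∧ r ∣ Fintype.card ι ∧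
    Geo.IsFieldSubalgebra r K ∧ Geo.IsAdjointClosedFor (polar Qf) K ∧ H ≤ Geo.subalgebraNormalizer K

/-- [Om-C4C7, first part] tensor products -/
def OmC4 : Prop := OmRow fun F _ _ ι _ _ Qf H =>
  Geo.ActsIrreducibly (Geo.matrixSet H) ∧ ∃ (n₁ n₂ : ℕ) (e : ι ≃ Fin n₁ × Fin n₂) (P : GL ι F) (ε : F)
    (f₁ : (Fin n₁ → F) → (Fin n₁ → F) → F) (f₂ : (Fin n₂ → F) → (Fin n₂ → F) → F), 2 ≤ n₁ ∧ 2 ≤ n₂ ∧
    n₁ * n₂ = Fintype.card ι ∧ (ε = 1 ∨ ε = -1) ∧ HermForm (RingEquiv.refl F) ε f₁ ∧ HermForm (RingEquiv.refl F) ε f₂ ∧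
    Geo.IsTensorFormStructure id (polar Qf) f₁ f₂ e P ∧ H ≤ Geo.tensorProductSubgroup n₁ n₂ e P

/-- [Om-C5] subfields -/
def OmC5 : Prop := OmRow fun F _ _ ι _ _ Qf H =>
  Geo.ActsIrreducibly (Geo.matrixSet H) ∧ ∃ (F₁ : Subfield F) (r : ℕ) (B : GL ι F) (ζ : F), F₁ ≠ ⊤ ∧ r.Prime ∧
    Nat.card F = Nat.card F₁ ^ r ∧ ζ ≠ 0 ∧ Geo.IsFormRationalStructure (polar Qf) F₁ ζ B ∧ H ≤ Geo.subfieldSubgroup F₁ B

/-- [Om-C6] symplectic type groups -/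
def OmC6 : Prop := OmRow fun F _ _ ι _ _ _ H =>
  Geo.ActsIrreducibly (Geo.matrixSet H) ∧ ∃ (r m : ℕ) (R : Subgroup (GL ι F)), R ≤ H ∧
    (∀ h ∈ H, ∀ x ∈ R, h * x * h⁻¹ ∈ R) ∧
    H ≤ Geo.subgroupNormalizer R ∧ Geo.ActsAbsolutelyIrreducibly (Geo.matrixSet R) ∧
    Geo.IsSymplecticTypeGroup r R ∧
    ringChar F ≠ r ∧ 1 ≤ m ∧ Fintype.card ι = r ^ m ∧ Subgroup.center R = (Geo.scalars ι F).subgroupOf R ∧
    ((Odd r ∧ Nat.card (Subgroup.center R) = r ∧ Nat.card R = r ^ (1 + 2 * m)) ∨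
     (r = 2 ∧ Nat.card (Subgroup.center R) = 4 ∧ Nat.card R = 2 ^ (2 + 2 * m)) ∨
     (r = 2 ∧ Nat.card (Subgroup.center R) = 2 ∧ Nat.card R = 2 ^ (1 + 2 * m))) ∧
    (∀ F₀ : Subfield F, F₀ ≠ ⊤ → ¬ Geo.RealisableOver F₀ (Geo.matrixSet R))

/-- [Om-C4C7, second part] tensor powers -/
def OmC7 : Prop := OmRow fun F _ _ ι _ _ _ H =>
  Geo.ActsIrreducibly (Geo.matrixSet H) ∧ ∃ (k t : ℕ) (e : ι ≃ (Fin t → Fin k)) (P : GL ι F)
    (E : Fin t → Subgroup (GL ι F)), k ^ t = Fintype.card ι ∧ WreathData H k t e P E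

theorem omegaGL_le {F : Type*} [Field F] {ι : Type} [Fintype ι] [DecidableEq ι] (Qf : (ι → F) → F) :
    Geo.omegaGL Qf ≤ isometryGroup F Qf := by
  rintro _ ⟨x, _, rfl⟩
  exact x.2

/-- **The assembly.** -/
theorem orthNonRes_of (hRed : OmRed) (hPoint : OmPoint) (hC2 : OmC2) (hC2t2 : OmC2t2) (hC2b : OmC2b) (hC3 : OmC3)
    (hC4 : OmC4) (hC5 : OmC5) (hC6 : OmC6) (hC7 : OmC7) : OrthNonRes := by
  intro Q _ _ hs A Γ h F _ _ ι _ _ Qf m h7 hQ hres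
  by_cases hirr : Geo.ActsIrreducibly (Geo.matrixSet (m.hat A))
  · have hH : m.hat A ≤ isometryGroup F Qf := (m.hat_le A).trans (omegaGL_le Qf)
    rcases Cfsg.Agent.H925.orth_irreducible_fine (by omega) hQ hH hirr with
      ⟨t, k, D, htk, hD, hHD, htr⟩ | ⟨k, D, hk, hD, hts, hHD⟩ | ⟨r, K, hr, hrd, hK, hadj, hHK⟩ |
      ⟨n₁, n₂, e, P, ε, f₁, f₂, h1, h2, h12, hε, hf1, hf2, hT, hHT⟩ | ⟨F₁, r, B, ζ, hF, hr, hcard, hζ, hform, hHB⟩ |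
      h6 | ⟨k, t, e, P, E, hkt, hw⟩ | hS
    · have h2t : 2 ≤ t := hD.decomp.decomp.two_le
      rcases Nat.eq_or_lt_of_le h2t with ht2 | ht3
      · subst ht2
        exact hC2t2 hs h m h7 hQ ⟨k, D, htk, hD.decomp, hHD⟩
      · exact hC2 hs h m h7 hQ ⟨hirr, t, k, D, htk, ht3, hD, hHD, htr⟩
    · exact hC2b hs h m h7 hQ ⟨hirr, k, D, hk, hD, hts, hHD⟩
    · exact hC3 hs h m h7 hQ ⟨hirr, r, K, hr, hrd, hK, hadj, hHK⟩
    · exact hC4 hs h m h7 hQ ⟨hirr, n₁, n₂, e, P, ε, f₁, f₂, h1, h2, h12, hε, hf1, hf2, hT, hHT⟩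
    · exact hC5 hs h m h7 hQ ⟨hirr, F₁, r, B, ζ, hF, hr, hcard, hζ, hform, hHB⟩
    · exact hC6 hs h m h7 hQ ⟨hirr, h6⟩
    · exact hC7 hs h m h7 hQ ⟨hirr, k, t, e, P, E, hkt, hw⟩
    · exact hres hS
  · exact hRed hPoint hC2t2 hs h m h7 hQ hirr

end Cfsg.Agent.H778.EP
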